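import Cfsg.Agent.H307.QE.Defs
import Cfsg.Agent.Characters.Counting
import Cfsg.Agent.H687.Gen

/-!
# Parity lemmas with an automorphism (S4547, `q` even; helper307)

`φ` an automorphism of `2`-power order of the finite group `G`, `OS φ χ` : `χ` irreducible of odd degree, `σ`-fixed and
`φ`-invariant.

* `exists_os_const` (P1) : a `σ`-fixed `φ`-invariant character of odd degree has a constituent `χ` with `OS φ χ`;
* `even_os` (P4), `exists_os_ne_one` (P2) : the number of the `OS` characters of a group of even order is even;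
* `sum_os` (P3), `exists_os_third` : parity at an element `x ≠ 1` of odd order with `φ x` conjugate to `x`.
-/

set_option autoImplicit false
set_option linter.unusedSectionVars false

open scoped ComplexConjugate
open Cfsg

namespace Cfsg.Agent.H307.QE

open Cfsg.Agent.Characters Cfsg.Agent.H601.K4 Cfsg.Agent.H967.K4 Cfsg.Agent.H618.Sigma

universe u

/-- two commuting maps of `2`-power order -/
theorem sum_fixed_two {Ω R : Type*} [Fintype Ω] [DecidableEq Ω] [Ring R] [CharP R 2] (s t : Ω → Ω) (n m : ℕ)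
    (hs : ∀ ω, s^[2 ^ n] ω = ω) (ht : ∀ ω, t^[2 ^ m] ω = ω) (hst : ∀ ω, s (t ω) = t (s ω)) (f : Ω → R)
    (hfs : ∀ ω, f (s ω) = f ω) (hft : ∀ ω, f (t ω) = f ω) :
    ∑ ω, f ω = ∑ ω with s ω = ω ∧ t ω = ω, f ω := by
  rw [sum_fixed_perm s n hs f hfs]
  let Ω' := {ω : Ω // s ω = ω}
  let t' : Ω' → Ω' := fun ω => ⟨t ω.1, by rw [hst, ω.2]⟩
  have hit : ∀ (j : ℕ) (ω : Ω'), (t'^[j] ω : Ω) = t^[j] (ω : Ω) := by
    intro j
    induction j with
    | zero => intro ω; rfl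
    | succ j ih =>
      intro ω
      rw [Function.iterate_succ_apply, Function.iterate_succ_apply, ih]
  have h1 : ∑ ω with s ω = ω, f ω = ∑ ω : Ω', f ω.1 := by
    rw [Finset.sum_subtype (p := fun ω => s ω = ω)]
    intro ω
    simp
  rw [h1, sum_fixed_perm t' m (fun ω => Subtype.ext (by rw [hit, ht])) (fun ω : Ω' => f ω.1) fun ω => hft _]
  refine Finset.sum_bij (fun (ω : Ω') _ => ω.1) ?_ ?_ ?_ ?_
  · intro ω hω
    rw [Finset.mem_filter] at hω ⊢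
    exact ⟨Finset.mem_univ _, ω.2, congrArg Subtype.val hω.2⟩
  · intro a _ b _ hab
    exact Subtype.ext hab
  · intro ω hω
    rw [Finset.mem_filter] at hω
    refine ⟨⟨ω, hω.2.1⟩, ?_, rfl⟩
    rw [Finset.mem_filter]
    exact ⟨Finset.mem_univ _, Subtype.ext hω.2.2⟩
  · intro ω _
    rfl

section

variable {G : Type u} [Group G]

/-- composition with an automorphism -/
noncomputable def act (φ : MulAut G) (χ : IrrCharacter G) : IrrCharacter G :=
  ⟨(χ : G → ℂ) ∘ φ, Core.isIrr_comp φ.toMonoidHom φ.surjective χ.2⟩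

theorem act_apply (φ : MulAut G) (χ : IrrCharacter G) (g : G) : (act φ χ : G → ℂ) g = (χ : G → ℂ) (φ g) := rfl

theorem act_iter (φ : MulAut G) (χ : IrrCharacter G) (m : ℕ) (g : G) :
    ((act φ)^[m] χ : G → ℂ) g = (χ : G → ℂ) ((φ ^ m) g) := by
  induction m generalizing χ g with
  | zero => rfl
  | succ m ih =>
    rw [Function.iterate_succ_apply, ih, act_apply, ← MulAut.mul_apply, ← pow_succ']

theorem act_iter_eq {φ : MulAut G} {k : ℕ} (hφ : φ ^ 2 ^ k = 1) (χ : IrrCharacter G) : (act φ)^[2 ^ k] χ = χ :=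
  Subtype.ext (funext fun g => by rw [act_iter, hφ]; rfl)

theorem act_eq_iff (φ : MulAut G) (χ : IrrCharacter G) : act φ χ = χ ↔ ∀ g, (χ : G → ℂ) (φ g) = (χ : G → ℂ) g :=
  ⟨fun e g => by rw [← act_apply, e], fun e => Subtype.ext (funext e)⟩

theorem charDegree_act (φ : MulAut G) (χ : IrrCharacter G) :
    charDegree (act φ χ : G → ℂ) = charDegree (χ : G → ℂ) := by
  unfold charDegree
  rw [act_apply, map_one]

theorem os_iff [Finite G] {k : ℕ} (hk : Cube G k) (φ : MulAut G) (χ : IrrCharacter G) :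
    OS φ (χ : G → ℂ) ↔ (sig hk χ = χ ∧ act φ χ = χ) ∧ ¬ 2 ∣ charDegree (χ : G → ℂ) := by
  rw [sig_eq_iff, act_eq_iff]
  constructor
  · exact fun h => ⟨⟨fun g => h.sf.apply_pow hk g, h.fix⟩, h.odd.2⟩
  · exact fun h => ⟨⟨χ.2, h.2⟩, SF.of_pow hk h.1.1, h.1.2⟩

theorem sum_os_gen [Finite G] {φ : MulAut G} {k : ℕ} (hφ : φ ^ 2 ^ k = 1) [Fintype (IrrCharacter G)]
    {R : Type*} [Ring R] [CharP R 2] (f : IrrCharacter G → R) {c : ℕ} (hc : Cube G c)
    (hf1 : ∀ χ, f (sig hc χ) = f χ) (hf2 : ∀ χ, f (act φ χ) = f χ)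
    (hf3 : ∀ χ : IrrCharacter G, 2 ∣ charDegree (χ : G → ℂ) → f χ = 0) (O : Finset (IrrCharacter G))
    (hO : ∀ χ, χ ∈ O ↔ OS φ (χ : G → ℂ)) : ∑ χ, f χ = ∑ χ ∈ O, f χ := by
  classical
  obtain ⟨N, hN⟩ := hc.exists_iter
  rw [sum_fixed_two (sig hc) (act φ) N k (fun χ => Subtype.ext (funext fun g => by rw [sig_iter, hN]))
    (act_iter_eq hφ) (fun χ => Subtype.ext (funext fun g => by
      rw [sig_apply, act_apply, act_apply, sig_apply, map_pow])) f hf1 hf2]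
  symm
  refine Finset.sum_subset (fun χ hχ => ?_) fun χ hχ hχO => ?_
  · rw [Finset.mem_filter]
    exact ⟨Finset.mem_univ _, ((os_iff hc φ χ).1 ((hO χ).1 hχ)).1⟩
  · rw [Finset.mem_filter] at hχ
    apply hf3
    by_contra h2
    exact hχO ((hO χ).2 ((os_iff hc φ χ).2 ⟨hχ.2, h2⟩))

/-- **(P1)** -/
theorem exists_os_const_odd [Fintype G] {φ : MulAut G} {k : ℕ} (hφ : φ ^ 2 ^ k = 1) {Φ : G → ℂ} (hΦ : IsCharacter G Φ)
    {n : ℕ} (hn : Φ 1 = n) (ho : Odd n) (hs : SF Φ) (hf : ∀ x, Φ (φ x) = Φ x) :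
    ∃ χ : G → ℂ, OS φ χ ∧ ∃ m : ℕ, Odd m ∧ classInner Φ χ = m := by
  classical
  obtain ⟨c, hc⟩ := exists_cube G
  have : Finite (IrrCharacter G) := Core.finite_irr
  have : Fintype (IrrCharacter G) := Fintype.ofFinite _
  obtain ⟨m, hm⟩ := Core.exists_nat_comb hΦ
  have hmi : ∀ χ : IrrCharacter G, classInner Φ (χ : G → ℂ) = m χ := fun χ => by
    rw [hm]; exact Core.classInner_sum_nsmul_irr m χ
  have hsig : ∀ χ : IrrCharacter G, m (sig hc χ) = m χ := by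
    intro χ
    have h1 : classInner Φ (sig hc χ : G → ℂ) = classInner Φ (χ : G → ℂ) := by
      rw [Core.classInner_def, Core.classInner_def]
      congr 1
      refine Fintype.sum_bijective (fun g : G => g ^ c) (pow_bijective hc) _ _ fun g => ?_
      rw [sig_apply, hs.apply_pow hc]
    rw [hmi, hmi] at h1
    exact_mod_cast h1
  have hact : ∀ χ : IrrCharacter G, m (act φ χ) = m χ := by
    intro χ
    have h1 : classInner Φ (act φ χ : G → ℂ) = classInner Φ (χ : G → ℂ) := by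
      rw [Core.classInner_def, Core.classInner_def]
      congr 1
      refine Fintype.sum_bijective (fun g : G => φ g) φ.bijective _ _ fun g => ?_
      rw [act_apply, hf]
    rw [hmi, hmi] at h1
    exact_mod_cast h1
  have h1 : (n : ℂ) = ((∑ χ : IrrCharacter G, m χ * charDegree (χ : G → ℂ) : ℕ) : ℂ) := by
    rw [← hn, hm]
    simp only [Finset.sum_apply, nsmul_eq_mul]
    push_cast
    refine Finset.sum_congr rfl fun χ _ => ?_
    change (m χ : ℂ) * (χ : G → ℂ) 1 = _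
    rw [Cfsg.Agent.Blocks.Basic.irr_one_eq_charDegree χ.2]
  have h2 : n = ∑ χ : IrrCharacter G, m χ * charDegree (χ : G → ℂ) := by exact_mod_cast h1
  let O : Finset (IrrCharacter G) := Finset.univ.filter fun χ => OS φ (χ : G → ℂ)
  have hO : ∀ χ, χ ∈ O ↔ OS φ (χ : G → ℂ) := fun χ => by simp [O]
  have h3 := sum_os_gen (R := ZMod 2) hφ (fun χ => ((m χ * charDegree (χ : G → ℂ) : ℕ) : ZMod 2)) hc
    (fun χ => by rw [hsig, charDegree_sig]) (fun χ => by rw [hact, charDegree_act])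
    (fun χ hχ => by
      rw [ZMod.natCast_eq_zero_iff]
      exact Dvd.dvd.mul_left hχ _) O hO
  rw [← Nat.cast_sum, ← h2] at h3
  have h4 : ((n : ℕ) : ZMod 2) ≠ 0 := by
    rw [Ne, ZMod.natCast_eq_zero_iff]
    exact fun h => (Nat.not_even_iff_odd.2 ho) (even_iff_two_dvd.2 h)
  rw [h3] at h4
  obtain ⟨χ, hχ, hne⟩ := Finset.exists_ne_zero_of_sum_ne_zero h4
  refine ⟨(χ : G → ℂ), (hO χ).1 hχ, m χ, ?_, hmi χ⟩
  rw [Ne, ZMod.natCast_eq_zero_iff] at hne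
  have : Odd (m χ * charDegree (χ : G → ℂ)) := by
    rw [← Nat.not_even_iff_odd, even_iff_two_dvd]
    exact hne
  exact (Nat.odd_mul.1 this).1

/-- **(P1)** -/
theorem exists_os_const [Fintype G] {φ : MulAut G} {k : ℕ} (hφ : φ ^ 2 ^ k = 1) {Φ : G → ℂ} (hΦ : IsCharacter G Φ)
    {n : ℕ} (hn : Φ 1 = n) (ho : Odd n) (hs : SF Φ) (hf : ∀ x, Φ (φ x) = Φ x) :
    ∃ χ : G → ℂ, OS φ χ ∧ classInner Φ χ ≠ 0 := by
  obtain ⟨χ, h1, m, h2, h3⟩ := exists_os_const_odd hφ hΦ hn ho hs hf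
  refine ⟨χ, h1, ?_⟩
  rw [h3]
  have := h2.pos
  exact_mod_cast this.ne'

/-- **(P4)** the number of the `OS` characters is even. -/
theorem even_os [Finite G] (h2 : 2 ∣ Nat.card G) {φ : MulAut G} {k : ℕ} (hφ : φ ^ 2 ^ k = 1)
    (O : Finset (IrrCharacter G)) (hO : ∀ χ, χ ∈ O ↔ OS φ (χ : G → ℂ)) : Even O.card := by
  classical
  have : Fintype G := Fintype.ofFinite G
  obtain ⟨c, hc⟩ := exists_cube G
  have : Finite (IrrCharacter G) := Core.finite_irr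
  have : Fintype (IrrCharacter G) := Fintype.ofFinite _
  have h1 := Cfsg.Agent.Characters.Counting.sum_irr_one_mul (G := G) 1
  rw [if_pos rfl] at h1
  have h3 : Nat.card G = ∑ χ : IrrCharacter G, charDegree (χ : G → ℂ) * charDegree (χ : G → ℂ) := by
    have h4 : ((Nat.card G : ℕ) : ℂ) = ((∑ χ : IrrCharacter G, charDegree (χ : G → ℂ) * charDegree (χ : G → ℂ) : ℕ) : ℂ) := by
      rw [← h1]
      push_cast
      refine Finset.sum_congr rfl fun χ _ => ?_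
      rw [Cfsg.Agent.Blocks.Basic.irr_one_eq_charDegree χ.2]
    exact_mod_cast h4
  have h5 := sum_os_gen (R := ZMod 2) hφ (fun χ => ((charDegree (χ : G → ℂ) * charDegree (χ : G → ℂ) : ℕ) : ZMod 2)) hc
    (fun χ => by rw [charDegree_sig]) (fun χ => by rw [charDegree_act])
    (fun χ hχ => by
      rw [ZMod.natCast_eq_zero_iff]
      exact Dvd.dvd.mul_left hχ _) O hO
  rw [← Nat.cast_sum, ← h3, (ZMod.natCast_eq_zero_iff _ 2).2 h2] at h5
  have h6 : ∑ χ ∈ O, ((charDegree (χ : G → ℂ) * charDegree (χ : G → ℂ) : ℕ) : ZMod 2) = (O.card : ZMod 2) := by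
    rw [Finset.card_eq_sum_ones, Nat.cast_sum]
    refine Finset.sum_congr rfl fun χ hχ => ?_
    have h7 := ((hO χ).1 hχ).odd.2
    have h8 : Odd (charDegree (χ : G → ℂ)) := by
      rw [← Nat.not_even_iff_odd, even_iff_two_dvd]
      exact h7
    rw [(ZMod.natCast_eq_one_iff_odd).2 (h8.mul h8)]
    simp
  rw [h6] at h5
  rw [even_iff_two_dvd]
  exact (ZMod.natCast_eq_zero_iff _ 2).1 h5.symm

/-- **(P2)** -/
theorem exists_os_ne_one [Finite G] (h2 : 2 ∣ Nat.card G) {φ : MulAut G} {k : ℕ} (hφ : φ ^ 2 ^ k = 1) :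
    ∃ χ : G → ℂ, OS φ χ ∧ χ ≠ 1 := by
  classical
  have : Finite (IrrCharacter G) := Core.finite_irr
  have : Fintype (IrrCharacter G) := Fintype.ofFinite _
  let O : Finset (IrrCharacter G) := Finset.univ.filter fun χ => OS φ (χ : G → ℂ)
  have hO : ∀ χ, χ ∈ O ↔ OS φ (χ : G → ℂ) := fun χ => by simp [O]
  have h1 := even_os h2 hφ O hO
  have h3 : (⟨1, Core.isIrr_one⟩ : IrrCharacter G) ∈ O := (hO _).2 (one_os φ)
  have h4 : 1 < O.card := by
    rcases Nat.lt_or_ge 1 O.card with h5 | h5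
    · exact h5
    · have h6 : 0 < O.card := Finset.card_pos.2 ⟨_, h3⟩
      have h7 : O.card = 1 := by omega
      rw [h7] at h1
      exact absurd h1 (by decide)
  obtain ⟨χ, hχ, hne⟩ := Finset.exists_mem_ne h4 ⟨1, Core.isIrr_one⟩
  exact ⟨(χ : G → ℂ), (hO χ).1 hχ, fun h => hne (Subtype.ext h)⟩

theorem two_nonunit : ((2 : ℕ) : AlgInt) ∈ nonunits AlgInt := by
  intro h
  obtain ⟨u, hu⟩ := h
  have h1 : ((2 : ℕ) : ℂ) * ((u⁻¹ : AlgIntˣ) : AlgInt).1 = 1 := by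
    have h2 : ((2 : ℕ) : AlgInt) * ((u⁻¹ : AlgIntˣ) : AlgInt) = 1 := by rw [← hu, Units.mul_inv]
    have h3 := congrArg (fun z : AlgInt => (z : ℂ)) h2
    have h4 : ((((2 : ℕ) : AlgInt) : AlgInt) : ℂ) = ((2 : ℕ) : ℂ) := by push_cast; rfl
    rw [← h4]
    exact h3
  refine Cfsg.Agent.H687.not_isIntegral_inv (le_refl 2) (z := -((u⁻¹ : AlgIntˣ) : AlgInt).1) ?_ ?_
  · exact ((u⁻¹ : AlgIntˣ) : AlgInt).2.neg
  · rw [mul_neg, h1]; ring

theorem mk_eq_zero_iff (a : AlgInt) :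
    Ideal.Quotient.mk (Ideal.span ({((2 : ℕ) : AlgInt)} : Set AlgInt)) a = 0 ↔ ∃ b : ℂ, IsIntegral ℤ b ∧ (a : ℂ) = 2 * b := by
  rw [Ideal.Quotient.eq_zero_iff_mem, Ideal.mem_span_singleton]
  constructor
  · rintro ⟨b, hb⟩
    refine ⟨b, b.2, ?_⟩
    rw [hb]
    push_cast
    rfl
  · rintro ⟨b, hb, e⟩
    refine ⟨⟨b, hb⟩, Subtype.ext ?_⟩
    rw [e]
    push_cast
    rfl

/-- **(P3)** -/
theorem sum_os [Finite G] {φ : MulAut G} {k : ℕ} (hφ : φ ^ 2 ^ k = 1) {x : G} (hx1 : x ≠ 1) (hx : Odd (orderOf x))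
    (hφx : ∃ g, φ x = g * x * g⁻¹) (O : Finset (IrrCharacter G)) (hO : ∀ χ, χ ∈ O ↔ OS φ (χ : G → ℂ)) :
    ∃ a : ℂ, IsIntegral ℤ a ∧ ∑ χ ∈ O, (χ : G → ℂ) x = 2 * a := by
  classical
  obtain ⟨c, hc⟩ := exists_cube G
  have : Finite (IrrCharacter G) := Core.finite_irr
  have : Fintype (IrrCharacter G) := Fintype.ofFinite _
  have : Fact (Nat.Prime 2) := ⟨Nat.prime_two⟩
  have hchar := CharP.quotient AlgInt 2 two_nonunit
  obtain ⟨g, hg⟩ := hφx
  let v : IrrCharacter G → AlgInt := fun χ => ⟨(χ : G → ℂ) x, GaloisBasic.isIntegral_apply (Core.isIrr_isCharacter χ.2) x⟩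
  have hv1 : ∀ χ, v (sig hc χ) = v χ := fun χ => Subtype.ext (by
    change (sig hc χ : G → ℂ) x = (χ : G → ℂ) x
    rw [sig_apply, hc.odd x hx])
  have hv2 : ∀ χ, v (act φ χ) = v χ := fun χ => Subtype.ext (by
    change (act φ χ : G → ℂ) x = (χ : G → ℂ) x
    rw [act_apply, hg]
    exact Core.isIrr_isClassFunction χ.2 x g)
  let q := Ideal.Quotient.mk (Ideal.span ({((2 : ℕ) : AlgInt)} : Set AlgInt))
  have h5 := sum_os_gen hφ (fun χ => q (((charDegree (χ : G → ℂ) : ℕ) : AlgInt) * v χ)) hc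
    (fun χ => by rw [charDegree_sig, hv1]) (fun χ => by rw [charDegree_act, hv2])
    (fun χ hχ => by
      rw [map_mul, map_natCast, (CharP.cast_eq_zero_iff _ 2 _).2 hχ, zero_mul]) O hO
  rw [← map_sum] at h5
  have h6 : ∑ χ : IrrCharacter G, ((charDegree (χ : G → ℂ) : ℕ) : AlgInt) * v χ = 0 := by
    apply Subtype.ext
    have h1 := Cfsg.Agent.Characters.Counting.sum_irr_one_mul (G := G) x
    rw [if_neg hx1] at h1
    push_cast
    rw [← h1]
    refine Finset.sum_congr rfl fun χ _ => ?_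
    rw [Cfsg.Agent.Blocks.Basic.irr_one_eq_charDegree χ.2]
  have h7 : ∑ χ ∈ O, q (((charDegree (χ : G → ℂ) : ℕ) : AlgInt) * v χ) = q (∑ χ ∈ O, v χ) := by
    rw [map_sum]
    refine Finset.sum_congr rfl fun χ hχ => ?_
    have h8 : ((charDegree (χ : G → ℂ) : ℕ) : AlgInt ⧸ Ideal.span ({((2 : ℕ) : AlgInt)} : Set AlgInt)) = 1 := by
      obtain ⟨j, hj⟩ : Odd (charDegree (χ : G → ℂ)) := by
        rw [← Nat.not_even_iff_odd, even_iff_two_dvd]
        exact ((hO χ).1 hχ).odd.2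
      have h9 : ((2 : ℕ) : AlgInt ⧸ Ideal.span ({((2 : ℕ) : AlgInt)} : Set AlgInt)) = 0 :=
        (CharP.cast_eq_zero_iff _ 2 _).2 (dvd_refl 2)
      rw [hj, Nat.cast_add, Nat.cast_mul, h9, zero_mul, zero_add, Nat.cast_one]
    rw [map_mul, map_natCast, h8, one_mul]
  rw [h6, map_zero, h7] at h5
  obtain ⟨b, hb, e⟩ := (mk_eq_zero_iff _).1 h5.symm
  refine ⟨b, hb, ?_⟩
  rw [← e]
  push_cast
  rfl

/-- **(P3)** a third `OS` character -/
theorem exists_os_third [Finite G] {φ : MulAut G} {k : ℕ} (hφ : φ ^ 2 ^ k = 1) {x : G} (hx1 : x ≠ 1)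
    (hx : Odd (orderOf x)) (hφx : ∃ g, φ x = g * x * g⁻¹) {χ₁ : G → ℂ} (h1 : OS φ χ₁) (h11 : χ₁ ≠ 1)
    (hint : ¬ ∃ a : ℂ, IsIntegral ℤ a ∧ 1 + χ₁ x = 2 * a) : ∃ χ₂ : G → ℂ, OS φ χ₂ ∧ χ₂ ≠ 1 ∧ χ₂ ≠ χ₁ := by
  classical
  have : Finite (IrrCharacter G) := Core.finite_irr
  have : Fintype (IrrCharacter G) := Fintype.ofFinite _
  let O : Finset (IrrCharacter G) := Finset.univ.filter fun χ => OS φ (χ : G → ℂ)
  have hO : ∀ χ, χ ∈ O ↔ OS φ (χ : G → ℂ) := fun χ => by simp [O]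
  by_contra hcon
  push Not at hcon
  apply hint
  obtain ⟨a, ha, e⟩ := sum_os hφ hx1 hx hφx O hO
  refine ⟨a, ha, ?_⟩
  rw [← e]
  have hne : (⟨1, Core.isIrr_one⟩ : IrrCharacter G) ≠ ⟨χ₁, h1.odd.1⟩ := fun h => h11 (congrArg Subtype.val h).symm
  have hOe : O = {⟨1, Core.isIrr_one⟩, ⟨χ₁, h1.odd.1⟩} := by
    ext χ
    rw [hO, Finset.mem_insert, Finset.mem_singleton]
    constructor
    · intro h
      by_cases h3 : (χ : G → ℂ) = 1
      · exact Or.inl (Subtype.ext h3)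
      · exact Or.inr (Subtype.ext (hcon _ h h3))
    · rintro (rfl | rfl)
      · exact one_os φ
      · exact h1
  rw [hOe, Finset.sum_pair hne]
  rfl

/-- the case `χ₁ x = 0` -/
theorem exists_os_third_zero [Finite G] {φ : MulAut G} {k : ℕ} (hφ : φ ^ 2 ^ k = 1) {x : G} (hx1 : x ≠ 1)
    (hx : Odd (orderOf x)) (hφx : ∃ g, φ x = g * x * g⁻¹) {χ₁ : G → ℂ} (h1 : OS φ χ₁) (h11 : χ₁ ≠ 1)
    (h0 : χ₁ x = 0) : ∃ χ₂ : G → ℂ, OS φ χ₂ ∧ χ₂ ≠ 1 ∧ χ₂ ≠ χ₁ := by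
  refine exists_os_third hφ hx1 hx hφx h1 h11 ?_
  rintro ⟨a, ha, e⟩
  refine Cfsg.Agent.H687.not_isIntegral_inv (le_refl 2) (z := -a) ha.neg ?_
  rw [h0, add_zero] at e
  push_cast
  linear_combination e

/-- `GInv3` from `exists_os_third` -/
theorem gInv3_of_third [Finite G] (hT : H601.OddDeg.TwoC G) {φ : MulAut G} {χ₁ : G → ℂ} (h1 : OS φ χ₁) (h11 : χ₁ ≠ 1)
    (h : ∃ χ₂ : G → ℂ, OS φ χ₂ ∧ χ₂ ≠ 1 ∧ χ₂ ≠ χ₁) : H821.K547.GInv3 φ := by
  obtain ⟨χ₂, h2, h3, h4⟩ := h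
  exact GInv3.of_os hT (one_os φ) h1 h2 (Ne.symm h11) (Ne.symm h3) (Ne.symm h4)

end

end Cfsg.Agent.H307.QE
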